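import Cfsg.Agent.H306.RIM.Tool

/-!
# S4816: defect zero characters over a central character, refined count (helper57)

* `good_of_cent`: `C_{G/Z}(ḡ) = ⟨ḡ⟩` implies that `g` is good;
* `card_conj_le`: `k(H) ≤ 1 + (|H| - 1) / 2` if `Z(H) = 1`;
* `exists_dz_quot2`, `nb_of_dz2`: as helper849 / helper306, with the number of classes of the complement.
-/

set_option autoImplicit false
set_option linter.unusedSectionVars false

namespace Cfsg.Agent.H57.RIM

open Cfsg Subgroup Finset
open Cfsg.Agent.Characters.Core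
open Cfsg.Agent.SmallSimple.ThetaSetup Cfsg.Agent.SmallSimple.ThetaOrtho Cfsg.Agent.SmallSimple.ThetaCount
open Cfsg.Agent.SmallSimple.TheoremC Cfsg.Agent.SmallSimple.TheoremCCor
open Cfsg.Agent.SmallSimple.SingularCount
open Cfsg.Agent.H622.Over Cfsg.Agent.H849.RIM Cfsg.Agent.H665.RIM

universe u

section good

variable {G : Type u} [Group G] [Finite G]

/-- A self-centralizing element modulo `Z` is good. -/
theorem good_of_cent {Z : Subgroup G} [Z.Normal] (hZ : Z ≤ center G) (c : Z →* ℂˣ) {g : G}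
    (h : centralizer ({(g : G ⧸ Z)} : Set (G ⧸ Z)) ≤ zpowers (g : G ⧸ Z)) : Good Z c g := by
  intro x hx
  have h1 : (x : G ⧸ Z) ∈ centralizer ({(g : G ⧸ Z)} : Set (G ⧸ Z)) := by
    rw [mem_centralizer_singleton_iff]
    have h2 := (QuotientGroup.eq_one_iff (N := Z) (x⁻¹ * g⁻¹ * x * g)).2 hx
    rw [QuotientGroup.mk_mul, QuotientGroup.mk_mul, QuotientGroup.mk_mul, QuotientGroup.mk_inv,
      QuotientGroup.mk_inv] at h2
    have h3 : (x : G ⧸ Z)⁻¹ * (g : G ⧸ Z)⁻¹ * (x : G ⧸ Z) * (g : G ⧸ Z) = 1 := h2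
    calc (x : G ⧸ Z) * g = g * x * ((x : G ⧸ Z)⁻¹ * (g : G ⧸ Z)⁻¹ * (x : G ⧸ Z) * (g : G ⧸ Z)) := by group
      _ = g * x := by rw [h3, mul_one]
  obtain ⟨i, hi⟩ := mem_zpowers_iff.1 (h h1)
  have h2 : (g ^ i)⁻¹ * x ∈ Z := by
    rw [← QuotientGroup.eq_one_iff, QuotientGroup.mk_mul, QuotientGroup.mk_inv, QuotientGroup.mk_zpow, hi,
      inv_mul_cancel]
  have h3 := mem_center_iff.1 (hZ h2) g
  have h4 : x * g = g * x := by
    have h5 : x = g ^ i * ((g ^ i)⁻¹ * x) := by group
    calc x * g = g ^ i * ((g ^ i)⁻¹ * x * g) := by group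
      _ = g ^ i * (g * ((g ^ i)⁻¹ * x)) := by rw [h3]
      _ = g * x := by group
  have h5 : (⟨x⁻¹ * g⁻¹ * x * g, hx⟩ : Z) = 1 := by
    apply Subtype.ext
    show x⁻¹ * g⁻¹ * x * g = 1
    calc x⁻¹ * g⁻¹ * x * g = x⁻¹ * g⁻¹ * (x * g) := by group
      _ = x⁻¹ * g⁻¹ * (g * x) := by rw [h4]
      _ = 1 := by group
  rw [h5, map_one]

/-- **A lower bound for the number of characters over `c`.** -/
theorem card_good_ge2 {Z : Subgroup G} [Z.Normal] (hZ : Z ≤ center G) (c : Z →* ℂˣ) (F : Finset (ConjClasses (G ⧸ Z)))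
    (hF : ∀ C ∈ F, ∃ g : G ⧸ Z, ConjClasses.mk g = C ∧ ((orderOf g).Coprime (Nat.card Z) ∨
      centralizer ({g} : Set (G ⧸ Z)) ≤ zpowers g)) :
    F.card ≤ Nat.card {χ : IrrCharacter G // Lies Z c (χ : G → ℂ)} := by
  classical
  rw [card_over hZ c, card_good hZ c]
  have h1 : Set.Finite {C : ConjClasses (G ⧸ Z) | ∃ g : G, ConjClasses.mk (g : G ⧸ Z) = C ∧ Good Z c g} := by
    have : Finite (ConjClasses (G ⧸ Z)) := Finite.of_surjective _ (ConjClasses.mk_surjective (α := G ⧸ Z))
    exact Set.toFinite _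
  have h2 : (F : Set (ConjClasses (G ⧸ Z))) ⊆
      {C : ConjClasses (G ⧸ Z) | ∃ g : G, ConjClasses.mk (g : G ⧸ Z) = C ∧ Good Z c g} := by
    intro C hC
    obtain ⟨g, hg, ho⟩ := hF C (mem_coe.1 hC)
    obtain ⟨g', rfl⟩ := QuotientGroup.mk_surjective g
    rcases ho with ho | ho
    · exact ⟨g', hg, good_of_coprime hZ c (pow_orderOf_eq_one _) ho⟩
    · exact ⟨g', hg, good_of_cent hZ c ho⟩
  have h3 := Set.ncard_le_ncard h2 h1
  rw [Set.ncard_coe_finset] at h3
  exact h3

end good

/-- `k(H) |H| = Σ |C(h)|`; with trivial center `k(H) ≤ 1 + (|H| - 1) / 2` -/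
theorem card_conj_le {H : Type*} [Group H] [Finite H] (hc : center H = ⊥) :
    2 * Nat.card (ConjClasses H) ≤ Nat.card H + 1 := by
  classical
  have := Fintype.ofFinite H
  have hk := card_comm_eq_card_conjClasses_mul_card H
  have h1 : Nat.card { p : H × H // Commute p.1 p.2 } = ∑ h : H, Nat.card (centralizer ({h} : Set H)) := by
    rw [← Nat.card_sigma]
    refine Nat.card_congr
      { toFun := fun p => ⟨p.1.1, ⟨p.1.2, mem_centralizer_singleton_iff.2 p.2.symm⟩⟩
        invFun := fun x => ⟨(x.1, x.2.1), (show Commute x.2.1 x.1 from mem_centralizer_singleton_iff.1 x.2.2).symm⟩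
        left_inv := fun p => rfl
        right_inv := fun x => rfl }
  rw [h1] at hk
  have h2 : ∀ h : H, h ≠ 1 → 2 * Nat.card (centralizer ({h} : Set H)) ≤ Nat.card H := by
    intro h hh
    have h3 : (centralizer ({h} : Set H)).index ≠ 1 := by
      intro h4
      rw [Subgroup.index_eq_one] at h4
      apply hh
      have h5 : h ∈ center H := by
        rw [mem_center_iff]
        intro g
        have h6 : g ∈ centralizer ({h} : Set H) := by rw [h4]; exact mem_top g
        exact mem_centralizer_singleton_iff.1 h6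
      rwa [hc, mem_bot] at h5
    have h4 := Subgroup.card_mul_index (centralizer ({h} : Set H))
    have h5 : 0 < (centralizer ({h} : Set H)).index := Nat.pos_of_ne_zero index_ne_zero_of_finite
    have h6 : 2 ≤ (centralizer ({h} : Set H)).index := by omega
    calc 2 * Nat.card (centralizer ({h} : Set H)) ≤
        (centralizer ({h} : Set H)).index * Nat.card (centralizer ({h} : Set H)) := Nat.mul_le_mul_right _ h6
      _ = Nat.card H := by rw [mul_comm, h4]
  have h3 : 2 * ∑ h : H, Nat.card (centralizer ({h} : Set H)) ≤ (Nat.card H + 1) * Nat.card H := by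
    rw [Finset.mul_sum]
    calc ∑ h : H, 2 * Nat.card (centralizer ({h} : Set H)) ≤
        ∑ h : H, (if h = 1 then 2 * Nat.card H else Nat.card H) := by
          refine Finset.sum_le_sum fun h _ => ?_
          split
          · next e =>
            exact Nat.mul_le_mul_left _ (Subgroup.card_le_card_group _)
          · next e => exact h2 h e
      _ = (Nat.card H + 1) * Nat.card H := by
          have h4 : ∀ h : H, (if h = 1 then 2 * Nat.card H else Nat.card H) =
              Nat.card H + (if h = 1 then Nat.card H else 0) := by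
            intro h
            split <;> ring
          rw [Finset.sum_congr rfl fun h _ => h4 h, Finset.sum_add_distrib, Finset.sum_const, Finset.card_univ,
            Finset.sum_ite_eq', if_pos (Finset.mem_univ _), smul_eq_mul, Nat.card_eq_fintype_card]
          ring
  rw [hk] at h3
  have h4 : 0 < Nat.card H := Nat.card_pos
  rw [← mul_assoc] at h3
  exact Nat.le_of_mul_le_mul_right h3 h4

/-- a nonabelian group of order 6 has at most 3 classes -/
theorem card_conj_six {H : Type*} [Group H] [Finite H] (h6 : Nat.card H = 6) (hn : ∃ a b : H, a * b ≠ b * a) :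
    Nat.card (ConjClasses H) ≤ 3 := by
  have hc : center H = ⊥ := by
    by_contra hc
    have h1 : Nat.card (center H) * (center H).index = 6 := by rw [Subgroup.card_mul_index, h6]
    have h2 : Nat.card (center H) ≠ 1 := fun h => hc ((Subgroup.card_eq_one).1 h)
    have h3 : ¬ IsCyclic (H ⧸ center H) := by
      intro h3
      obtain ⟨a, b, hab⟩ := hn
      apply hab
      have h4 : (QuotientGroup.mk' (center H)).ker ≤ center H := by rw [QuotientGroup.ker_mk']
      have h5 := MonoidHom.isMulCommutative_of_isCyclic_of_ker_le_center (QuotientGroup.mk' (center H)) h4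
      exact mul_comm' a b
    have h4 : ¬ (center H).index ∣ 1 := by
      intro h4
      apply h3
      have : Nat.card (H ⧸ center H) = 1 := Nat.dvd_one.1 h4
      have h5 : Subsingleton (H ⧸ center H) := (Nat.card_eq_one_iff_unique.1 this).1
      exact isCyclic_of_subsingleton
    have h5 : ∀ p : ℕ, p.Prime → (center H).index ≠ p := by
      intro p hp h5
      have : Fact p.Prime := ⟨hp⟩
      exact h3 (isCyclic_of_prime_card (p := p) (h5 : Nat.card (H ⧸ center H) = p))
    have h7 : (center H).index ∣ 6 := ⟨_, by rw [mul_comm]; exact h1.symm⟩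
    have h8 : (center H).index ≤ 6 := Nat.le_of_dvd (by norm_num) h7
    have h9 := h5 2 Nat.prime_two
    have h10 := h5 3 Nat.prime_three
    generalize (center H).index = i at *
    generalize Nat.card (center H) = j at *
    interval_cases i
    · simp at h7
    · exact h4 (dvd_refl 1)
    · exact h9 rfl
    · exact h10 rfl
    · omega
    · omega
    · omega
  have := card_conj_le hc
  omega

/-! ### The refined count -/

section quot

variable {G : Type u} [Group G] [Finite G] {p : ℕ} [Fact p.Prime]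

/-- A character vanishing on the `p`-singular elements, `p ∣ |G|`, has degree divisible by `p`. -/
theorem exists_dz2 {P : Sylow p G} {K : Subgroup G} (hK : IsComp p (P : Subgroup G) K) (hP : Nat.card P = p)
    {Z : Subgroup G} [Z.Normal] (hZ : Z ≤ center G) (hZK : Z ≤ K) (c : Z →* ℂˣ) {w : ℕ}
    (hw : (centralizer ((P : Subgroup G) : Set G)).relIndex (normalizer ((P : Subgroup G) : Set G)) = w)
    (A : Finset (IrrCharacter K)) (hA : ∀ θ : IrrCharacter K, LiesK Z c K (θ : K → ℂ) → θ ∈ A)
    (F : Finset (ConjClasses (G ⧸ Z)))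
    (hF : ∀ C ∈ F, ∃ g : G ⧸ Z, ConjClasses.mk g = C ∧ ((orderOf g).Coprime (Nat.card Z) ∨
      centralizer ({g} : Set (G ⧸ Z)) ≤ zpowers g))
    (hlt : ∑ θ ∈ A, (Nat.card (stabAct hK (θ : K → ℂ)) ^ 2 + (p - 1)) < w * F.card) :
    ∃ χ : IrrCharacter G, Lies Z c (χ : G → ℂ) ∧ ∀ g : G, p ∣ orderOf g → (χ : G → ℂ) g = 0 := by
  classical
  by_contra hcon
  push Not at hcon
  have := finite_irr (G := G)
  have := Fintype.ofFinite (IrrCharacter G)
  have h1 := card_mul_le hK hP hZ hZK hw A hA (Finset.univ.filter fun χ : IrrCharacter G => Lies Z c (χ : G → ℂ))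
    (fun χ hχ => ⟨(mem_filter.1 hχ).2, by
      obtain ⟨g, hg, hne⟩ := hcon χ (mem_filter.1 hχ).2
      exact ⟨g, hg, hne⟩⟩)
  have h2 := card_good_ge2 hZ c F hF
  rw [Nat.card_eq_fintype_card, Fintype.card_subtype] at h2
  have h3 := Nat.mul_le_mul_left w h2
  omega

/-- The number of characters of `K` over `c` is at most the number of classes of `K Z / Z`. -/
theorem card_liesK_le2 {Z : Subgroup G} [Z.Normal] (hZ : Z ≤ center G) {K : Subgroup G} (hZK : Z ≤ K) (c : Z →* ℂˣ)
    (A : Finset (IrrCharacter K))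
    (hA : ∀ θ ∈ A, LiesK Z c K (θ : K → ℂ)) : A.card ≤ Nat.card (ConjClasses (K.map (QuotientGroup.mk' Z))) := by
  classical
  have hZ' : Z.subgroupOf K ≤ center K := by
    intro z hz
    rw [mem_center_iff]
    intro y
    exact Subtype.ext (mem_center_iff.1 (hZ (mem_subgroupOf.1 hz)) y)
  have hnorm : (Z.subgroupOf K).Normal := by
    refine ⟨fun z hz y => ?_⟩
    have h1 := mem_center_iff.1 (hZ' hz) y
    rw [h1, mul_inv_cancel_right]
    exact hz
  let c' : Z.subgroupOf K →* ℂˣ := c.comp (subgroupOfEquivOfLe hZK).toMonoidHom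
  have h1 := card_over hZ' c'
  rw [card_good hZ' c'] at h1
  have hfin : Finite (IrrCharacter K) := finite_irr
  have := Fintype.ofFinite (IrrCharacter K)
  have h2 : A.card ≤ Nat.card {χ : IrrCharacter K // Lies (Z.subgroupOf K) c' (χ : K → ℂ)} := by
    have h3 : (A : Set (IrrCharacter K)) ⊆ {χ : IrrCharacter K | Lies (Z.subgroupOf K) c' (χ : K → ℂ)} := by
      intro θ hθ y z
      have h4 := hA θ (mem_coe.1 hθ) y (y * z) ⟨((z : K) : G), mem_subgroupOf.1 z.2⟩ rfl
      exact h4
    have h4 := Set.ncard_le_ncard h3 (Set.toFinite _)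
    rw [Set.ncard_coe_finset] at h4
    exact h4
  rw [h1] at h2
  refine h2.trans ?_
  have hfc : Finite (ConjClasses (K ⧸ Z.subgroupOf K)) :=
    Finite.of_surjective _ (ConjClasses.mk_surjective (α := K ⧸ Z.subgroupOf K))
  have h5 : Nat.card {C : ConjClasses (K ⧸ Z.subgroupOf K) // ∃ g : K,
      ConjClasses.mk (g : K ⧸ Z.subgroupOf K) = C ∧ Good (Z.subgroupOf K) c' g} ≤
      Nat.card (ConjClasses (K ⧸ Z.subgroupOf K)) :=
    Nat.card_le_card_of_injective _ Subtype.val_injective
  refine h5.trans ?_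
  -- `K / Z → K Z / Z`
  let f : K →* K.map (QuotientGroup.mk' Z) := (QuotientGroup.mk' Z).subgroupMap K
  have hf : Function.Surjective f := MonoidHom.subgroupMap_surjective _ _
  have hker : f.ker = Z.subgroupOf K := by
    ext x
    rw [MonoidHom.mem_ker, mem_subgroupOf, ← QuotientGroup.eq_one_iff]
    constructor
    · intro h
      exact congrArg Subtype.val h
    · intro h
      exact Subtype.ext h
  let e : K ⧸ Z.subgroupOf K ≃* K.map (QuotientGroup.mk' Z) :=
    (QuotientGroup.quotientMulEquivOfEq hker.symm).trans (QuotientGroup.quotientKerEquivOfSurjective f hf)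
  have hfc' : Finite (ConjClasses (K.map (QuotientGroup.mk' Z))) :=
    Finite.of_surjective _ (ConjClasses.mk_surjective (α := K.map (QuotientGroup.mk' Z)))
  refine Nat.card_le_card_of_surjective (ConjClasses.map e.symm.toMonoidHom) ?_
  exact ConjClasses.map_surjective e.symm.surjective

/-- **Defect zero over a central character, `p ∥ |G|`, refined.**  `S = G ⧸ Z`, `y ∈ S` of order `p`, `|C_S(y)| = p k`,
`|N_S(⟨y⟩)| = w p k`, subgroups of order `k` of `C_S(y)` have at most `k'` classes, and more than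
`k' (w ^ 2 + p - 1) / w` classes of `S` are known to be good. -/
theorem exists_dz_quot2 {Z : Subgroup G} [Z.Normal] (hZ : Z ≤ center G) (hZp : ¬ p ∣ Nat.card Z)
    (hsq : ¬ p ^ 2 ∣ Nat.card (G ⧸ Z)) {y : G ⧸ Z} (hy : orderOf y = p) {k w k' : ℕ}
    (hC : Nat.card (centralizer ({y} : Set (G ⧸ Z))) = p * k)
    (hN : Nat.card (normalizer ((zpowers y : Subgroup (G ⧸ Z)) : Set (G ⧸ Z))) = w * (p * k))
    (hk' : ∀ H : Subgroup (G ⧸ Z), H ≤ centralizer ({y} : Set (G ⧸ Z)) → Nat.card H = k →
      Nat.card (ConjClasses H) ≤ k') (c : Z →* ℂˣ)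
    (F : Finset (ConjClasses (G ⧸ Z)))
    (hF : ∀ C ∈ F, ∃ g : G ⧸ Z, ConjClasses.mk g = C ∧ ((orderOf g).Coprime (Nat.card Z) ∨
      centralizer ({g} : Set (G ⧸ Z)) ≤ zpowers g))
    (hlt : k' * (w ^ 2 + (p - 1)) < w * F.card) :
    ∃ χ : IrrCharacter G, Lies Z c (χ : G → ℂ) ∧ p ∣ charDegree (χ : G → ℂ) := by

  classical
  have hp : p.Prime := Fact.out
  have hfin : Finite (IrrCharacter G) := finite_irr
  obtain ⟨u, rfl, hu⟩ := exists_lift hZp hy
  -- the Sylow subgroup
  have hcG := card_eq_card_quotient_mul_card_subgroup Z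
  have hG2 : ¬ p ^ 2 ∣ Nat.card G := by
    rw [hcG]
    intro h
    have hco : (p ^ 2).Coprime (Nat.card Z) := Nat.Coprime.pow_left 2 ((hp.coprime_iff_not_dvd).2 hZp)
    exact hsq (hco.dvd_of_dvd_mul_right h)
  have hzp : IsPGroup p (zpowers u) := IsPGroup.of_card (n := 1) (by rw [Nat.card_zpowers, hu, pow_one])
  obtain ⟨P, hPle⟩ := hzp.exists_le_sylow
  have hP : Nat.card P = p := by
    obtain ⟨n, hn⟩ := (IsPGroup.iff_card).1 P.2
    have h1 : Nat.card P ∣ Nat.card G := card_subgroup_dvd_card _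
    have h2 : n < 2 := by
      by_contra h3
      push Not at h3
      exact hG2 ((pow_dvd_pow p h3).trans (hn ▸ h1))
    have h3 : p ∣ Nat.card P := by
      have := card_dvd_of_le hPle
      rwa [Nat.card_zpowers, hu] at this
    interval_cases n
    · rw [hn, pow_zero, Nat.dvd_one] at h3
      exact absurd h3 hp.one_lt.ne'
    · rw [hn, pow_one]
  have hPz : (P : Subgroup G) = zpowers u := by
    symm
    refine eq_of_le_of_card_ge hPle ?_
    rw [Nat.card_zpowers, hu]
    exact hP.le
  obtain ⟨K, hK⟩ := exists_isComp P hP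
  have huP : u ∈ (P : Subgroup G) := hPle (mem_zpowers u)
  have hu1 : u ≠ 1 := by
    rintro rfl
    rw [orderOf_one] at hu
    exact hp.one_lt.ne hu
  have hCP : centralizer ((P : Subgroup G) : Set G) = centralizer ({u} : Set G) :=
    (Blocks.CyclicOrtho.centralizer_eq P hP huP hu1).symm
  -- the centralizer
  have hcent : centralizer ((P : Subgroup G) : Set G) =
      (centralizer ({(u : G ⧸ Z)} : Set (G ⧸ Z))).comap (QuotientGroup.mk' Z) := by
    rw [hCP]
    ext x
    rw [mem_centralizer_singleton_iff, mem_comap, mem_centralizer_singleton_iff]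
    constructor
    · intro h
      have := congrArg (QuotientGroup.mk' Z) h
      simpa using this
    · intro h
      have h1 : (x : G ⧸ Z) * u * (x : G ⧸ Z)⁻¹ = (u : G ⧸ Z) ^ 1 := by
        have h2 : (x : G ⧸ Z) * u = u * x := h
        rw [h2, mul_inv_cancel_right, pow_one]
      have h2 := comm_of_comm hZ hZp hu h1
      rw [pow_one, mul_inv_eq_iff_eq_mul] at h2
      exact h2
  have hnorm : normalizer ((P : Subgroup G) : Set G) =
      (normalizer ((zpowers (u : G ⧸ Z) : Subgroup (G ⧸ Z)) : Set (G ⧸ Z))).comap (QuotientGroup.mk' Z) := by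
    have hPm : (P : Subgroup G).map (QuotientGroup.mk' Z) = zpowers (u : G ⧸ Z) := by
      rw [hPz, MonoidHom.map_zpowers]
      rfl
    apply le_antisymm
    · intro x hx
      rw [mem_comap, ← hPm]
      exact Subgroup.le_normalizer_map _ (mem_map_of_mem _ hx)
    · intro x hx
      rw [mem_comap] at hx
      have h1 : (x : G ⧸ Z) * u * (x : G ⧸ Z)⁻¹ ∈ zpowers (u : G ⧸ Z) :=
        (mem_normalizer_iff.1 hx (u : G ⧸ Z)).1 (mem_zpowers _)
      obtain ⟨j, hj⟩ := mem_powers_iff_mem_zpowers.2 h1
      have h2 := comm_of_comm hZ hZp hu (x := x) (j := j) hj.symm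
      refine mem_normalizer_fintype fun n hn => ?_
      have hn' : n ∈ zpowers u := by rw [← hPz]; exact hn
      obtain ⟨i, rfl⟩ := mem_powers_iff_mem_zpowers.2 hn'
      show x * u ^ i * x⁻¹ ∈ (P : Subgroup G)
      rw [← conj_pow, h2, hPz]
      exact pow_mem (pow_mem (mem_zpowers u) j) i
  have hcC : Nat.card (centralizer ((P : Subgroup G) : Set G)) = p * k * Nat.card Z := by
    rw [hcent, card_comap, hC]
  have hcN : Nat.card (normalizer ((P : Subgroup G) : Set G)) = w * (p * k) * Nat.card Z := by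
    rw [hnorm, card_comap, hN]
  have hcK : Nat.card K = k * Nat.card Z := by
    have h1 : Nat.card P * Nat.card K = Nat.card (centralizer ((P : Subgroup G) : Set G)) := by
      rw [← Nat.card_prod]
      exact Nat.card_congr (prodEquiv hK hP).toEquiv
    rw [hP, hcC, mul_assoc] at h1
    exact Nat.eq_of_mul_eq_mul_left hp.pos h1
  have hZK : Z ≤ K := by
    intro z hz
    rw [hK]
    refine ⟨?_, fun h => hZp ?_⟩
    · rw [mem_centralizer_iff]
      intro g _
      exact mem_center_iff.1 (hZ hz) g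
    · have h1 := _root_.orderOf_dvd_natCard (⟨z, hz⟩ : Z)
      rw [← orderOf_submonoid] at h1
      exact h.trans h1
  have hk0 : 0 < k := by
    rcases Nat.eq_zero_or_pos k with h | h
    · rw [h, zero_mul] at hcK
      exact absurd hcK Nat.card_pos.ne'
    · exact h
  have hw : (centralizer ((P : Subgroup G) : Set G)).relIndex (normalizer ((P : Subgroup G) : Set G)) = w := by
    have h1 : centralizer ((P : Subgroup G) : Set G) ≤ normalizer ((P : Subgroup G) : Set G) :=
      centralizer_le_normalizer _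
    have h2 := Subgroup.card_mul_index ((centralizer ((P : Subgroup G) : Set G)).subgroupOf
      (normalizer ((P : Subgroup G) : Set G)))
    rw [Nat.card_congr (subgroupOfEquivOfLe h1).toEquiv, hcC, hcN] at h2
    have h3 : 0 < p * k * Nat.card Z := Nat.mul_pos (Nat.mul_pos hp.pos hk0) Nat.card_pos
    rw [Subgroup.relIndex]
    apply Nat.eq_of_mul_eq_mul_left h3
    rw [h2]
    ring
  have hfK : Finite (IrrCharacter K) := finite_irr
  have := Fintype.ofFinite (IrrCharacter K)
  set A : Finset (IrrCharacter K) := univ.filter fun θ => LiesK Z c K (θ : K → ℂ) with hA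
  have hKC : (K.map (QuotientGroup.mk' Z)) ≤ centralizer ({(u : G ⧸ Z)} : Set (G ⧸ Z)) := by
    rw [map_le_iff_le_comap, ← hcent]
    intro x hx
    rw [hK] at hx
    exact hx.1
  have hKm : Nat.card (K.map (QuotientGroup.mk' Z)) = k := by
    have h1 : (K.map (QuotientGroup.mk' Z)).comap (QuotientGroup.mk' Z) = K := by
      rw [comap_map_eq, QuotientGroup.ker_mk', sup_eq_left.2 hZK]
    have h2 := card_comap (Z := Z) (K.map (QuotientGroup.mk' Z))
    rw [h1, hcK] at h2
    exact (Nat.eq_of_mul_eq_mul_right Nat.card_pos h2).symm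
  have hAk : A.card ≤ k' := (card_liesK_le2 hZ hZK c A fun θ hθ => (mem_filter.1 hθ).2).trans (hk' _ hKC hKm)
  have hsum : ∑ θ ∈ A, (Nat.card (stabAct hK (θ : K → ℂ)) ^ 2 + (p - 1)) ≤ k' * (w ^ 2 + (p - 1)) := by
    have hw0 : 0 < w := by
      rcases Nat.eq_zero_or_pos w with h | h
      · rw [h, zero_mul, zero_mul] at hcN
        exact absurd hcN Nat.card_pos.ne'
      · exact h
    calc ∑ θ ∈ A, (Nat.card (stabAct hK (θ : K → ℂ)) ^ 2 + (p - 1)) ≤ ∑ _θ ∈ A, (w ^ 2 + (p - 1)) := by
          refine Finset.sum_le_sum fun θ _ => Nat.add_le_add_right (Nat.pow_le_pow_left ?_ 2) _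
          have h1 := card_stabAct_mul_card_orb hK hP θ.2
          rw [hw] at h1
          exact Nat.le_of_dvd hw0 (h1 ▸ dvd_mul_right _ _)
      _ = A.card * (w ^ 2 + (p - 1)) := by rw [Finset.sum_const, smul_eq_mul]
      _ ≤ k' * (w ^ 2 + (p - 1)) := Nat.mul_le_mul_right _ hAk
  obtain ⟨χ, hl, h0⟩ := exists_dz2 hK hP hZ hZK c hw A (fun θ hθ => mem_filter.2 ⟨mem_univ _, hθ⟩) F hF
    (lt_of_le_of_lt hsum hlt)
  refine ⟨χ, hl, ?_⟩
  obtain ⟨d, hd⟩ := exists_degree_eq (P : Subgroup G) (isIrr_isCharacter χ.2) fun x hx hx1 => h0 x (by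
    rw [Blocks.CyclicOrtho.orderOf_eq P hP hx hx1])
  rw [hP] at hd
  refine ⟨d, ?_⟩
  have h1 : ((charDegree (χ : G → ℂ) : ℕ) : ℂ) = ((p * d : ℕ) : ℂ) := by
    obtain ⟨n, hn⟩ := isCharacter_apply_one (isIrr_isCharacter χ.2)
    unfold charDegree
    rw [hn, Complex.natCast_re, Nat.floor_natCast, ← hn, hd]
    push_cast
    ring
  exact_mod_cast h1

end quot

/-- **The refined count as `NB p m S`.** -/
theorem nb_of_dz2 {p m : ℕ} [Fact p.Prime] {S : Type u} [Group S] [Finite S] (hpm : ¬ p ∣ m)
    (hsq : ¬ p ^ 2 ∣ Nat.card S) {y : S} (hy : orderOf y = p) {k w k' : ℕ}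
    (hC : Nat.card (centralizer ({y} : Set S)) = p * k)
    (hN : Nat.card (normalizer ((zpowers y : Subgroup S) : Set S)) = w * (p * k))
    (hk' : ∀ H : Subgroup S, H ≤ centralizer ({y} : Set S) → Nat.card H = k → Nat.card (ConjClasses H) ≤ k')
    {n : ℕ} (g : Fin n → S)
    (hg : ∀ i, (orderOf (g i)).Coprime m ∨ centralizer ({g i} : Set S) ≤ zpowers (g i))
    (hinj : ∀ i j, IsConj (g i) (g j) → i = j)
    (hlt : k' * (w ^ 2 + (p - 1)) < w * n) : NB p m S := by
  classical
  intro E _ _ π hπ hcen _ hm l _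
  let f : E ⧸ π.ker ≃* S := QuotientGroup.quotientKerEquivOfSurjective π hπ
  have hinj' : Function.Injective fun i : Fin n => ConjClasses.mk (f.symm (g i)) := by
    intro i j h
    apply hinj
    have h1 := ConjClasses.mk_eq_mk_iff_isConj.1 h
    have h2 := f.toMonoidHom.map_isConj h1
    simpa using h2
  have hcs : ∀ (s : S) (x : E ⧸ π.ker), x ∈ centralizer ({f.symm s} : Set (E ⧸ π.ker)) ↔
      f x ∈ centralizer ({s} : Set S) := by
    intro s x
    rw [mem_centralizer_singleton_iff, mem_centralizer_singleton_iff]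
    constructor
    · intro h
      have := congrArg f h
      simpa using this
    · intro h
      apply f.injective
      simpa using h
  have hC' : Nat.card (centralizer ({f.symm y} : Set (E ⧸ π.ker))) = p * k := by
    rw [← hC]
    exact Nat.card_congr (f.toEquiv.subtypeEquiv fun x => hcs y x)
  have hmap : ∀ s : S, (zpowers (f.symm s)).map f.toMonoidHom = zpowers s := by
    intro s
    rw [MonoidHom.map_zpowers]
    congr 1
    exact f.apply_symm_apply s
  have key : ∀ (s : S) (h : E ⧸ π.ker), h ∈ zpowers (f.symm s) ↔ f h ∈ zpowers s := by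
    intro s h
    rw [← hmap]
    exact ⟨fun h1 => mem_map_of_mem _ h1, fun ⟨a, ha, hb⟩ => by
      have : a = h := f.injective hb
      exact this ▸ ha⟩
  have hN' : Nat.card (normalizer ((zpowers (f.symm y) : Subgroup (E ⧸ π.ker)) : Set (E ⧸ π.ker))) = w * (p * k) := by
    rw [← hN]
    refine Nat.card_congr (f.toEquiv.subtypeEquiv fun x => ?_)
    show x ∈ normalizer ((zpowers (f.symm y) : Subgroup (E ⧸ π.ker)) : Set (E ⧸ π.ker)) ↔
      f x ∈ normalizer ((zpowers y : Subgroup S) : Set S)
    rw [mem_normalizer_iff, mem_normalizer_iff]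
    constructor
    · intro h a
      have := h (f.symm a)
      rw [key, key] at this
      simpa using this
    · intro h a
      rw [key, key, map_mul, map_mul, map_inv]
      exact h (f a)
  have hy' : orderOf (f.symm y) = p := by
    rw [← hy]
    exact orderOf_injective f.symm.toMonoidHom f.symm.injective y
  have hk2 : ∀ H : Subgroup (E ⧸ π.ker), H ≤ centralizer ({f.symm y} : Set (E ⧸ π.ker)) → Nat.card H = k →
      Nat.card (ConjClasses H) ≤ k' := by
    intro H hH hc
    have h1 : H.map f.toMonoidHom ≤ centralizer ({y} : Set S) := by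
      rintro _ ⟨x, hx, rfl⟩
      exact (hcs y x).1 (hH hx)
    have h2 : Nat.card (H.map f.toMonoidHom) = k := by
      rw [Nat.card_congr (H.equivMapOfInjective f.toMonoidHom f.injective).symm.toEquiv, hc]
    have h3 := hk' _ h1 h2
    refine le_trans ?_ h3
    let e : H ≃* H.map f.toMonoidHom := H.equivMapOfInjective f.toMonoidHom f.injective
    have : Finite (ConjClasses (H.map f.toMonoidHom)) :=
      Finite.of_surjective _ (ConjClasses.mk_surjective (α := H.map f.toMonoidHom))
    refine Nat.card_le_card_of_surjective (ConjClasses.map e.symm.toMonoidHom) ?_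
    exact ConjClasses.map_surjective e.symm.surjective
  obtain ⟨χ, hl, hd⟩ := exists_dz_quot2 (p := p) hcen (by rw [hm]; exact hpm)
    (by rw [Nat.card_congr f.toEquiv]; exact hsq) hy' hC' hN' hk2 l
    (Finset.univ.image fun i : Fin n => ConjClasses.mk (f.symm (g i))) (by
      intro C hC
      obtain ⟨i, -, rfl⟩ := Finset.mem_image.1 hC
      refine ⟨_, rfl, ?_⟩
      rw [hm, show orderOf (f.symm (g i)) = orderOf (g i) from orderOf_injective f.symm.toMonoidHom f.symm.injective _]
      rcases hg i with h | h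
      · exact Or.inl h
      · right
        intro x hx
        rw [key]
        exact h ((hcs _ x).1 hx)) (by
      rw [Finset.card_image_of_injective _ hinj', Finset.card_univ, Fintype.card_fin]
      exact hlt)
  refine ⟨χ, χ.2, fun z => ?_, hd⟩
  have := hl 1 z
  rwa [one_mul] at this

end Cfsg.Agent.H57.RIM
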