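import Cfsg.Agent.H325.RIM.Surv
import Cfsg.Agent.H64.CrossChev
import Cfsg.Agent.H59.CrossTw
import Cfsg.Agent.H963.RIM.OwnC

set_option autoImplicit false


/-!
# S4816, RIM-L-OWN: the exceptional groups in their own characteristic (helper57)

`own_e6`, `own_e7`, `own_te6` (fields of `H325/RIM/Surv.lean` `RowsNB`).
-/

namespace Cfsg.Agent.H57.RIM

open CoxeterSystem Cfsg.Agent.ChevalleyStructure.CoxeterGeom Cfsg.Agent.Tits.Roots Cfsg.Agent.Tits.Core
  Cfsg.Agent.Nodes.Reps Cfsg.Agent.Nodes.BNOf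
open Cfsg.Agent.Nodes.Bruhat
open Cfsg.Agent.ChevalleyStructure.SL2Hom (up lo)
open Cfsg.Agent.H64.CrossChev (Nd nd isType_E6 isType_E7 parity_E7)
open Cfsg.Agent.H665.RIM Cfsg.Agent.H325.RIM Cfsg.Agent.OrdDiv Cfsg.Agent.H436
open Cfsg.Agent.Nodes.RGDChev (HasRGD IsType)
open Cfsg.Agent.KFacts.MulOdd.Inst Cfsg.Agent.KFacts.MulOdd.InstChev
open scoped MatrixGroups

universe u v w

/-- `NBall` of a group with a root group datum and a homomorphism from `SL(2, E)` onto a rank one group -/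
theorem nball_of_nd64 {l : ℕ} {M : CoxeterMatrix (Fin l)} {A : Fin l → Fin l → ℤ} {h : IsCartan M A} {p : ℕ}
    (hp : p.Prime) (hW : Finite M.Group) {S : Type u} [Group S] [Finite S] {T : Subgroup S} {n : Fin l → S}
    {X : (Fin l → ℤ) → Subgroup S} (R : RGD M.toCoxeterSystem h p T n X)
    (hX : Nodes.RGDLib.G1 M.toCoxeterSystem h X = ⊤) {i : Fin l} {E : Type w} [Field E] [Finite E] [CharP E p]
    {φ : SL(2, E) →* S} (N : Nd T n X i φ) : NBall p S := by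
  have : Fact p.Prime := ⟨hp⟩
  have hG : GG M.toCoxeterSystem h T X = ⊤ := by
    rw [eq_top_iff, ← hX]
    exact le_sup_right
  refine H963.RIM.nball_of_nd R hG ⟨l, M, A, h, T, n, X, hW, R, hX⟩ (MonoidHom.id S) Function.surjective_id
    (fun x hx => by
      have hx' : x = 1 := hx
      rw [hx']
      exact Subgroup.one_mem _) ?_ (i := i) φ (fun t => (N.mem _).2 ⟨t, rfl⟩) (fun y hy => (N.mem y).1 hy) ?_ ?_
  · have h1 : (MonoidHom.id S).ker = ⊥ := by
      ext x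
      exact Iff.rfl
    rw [h1, Subgroup.card_bot]
    exact Nat.coprime_one_left p
  · intro t
    refine (N.conj_eq R _).2 ⟨-t, ?_⟩
    rw [← Nodes.RGDFoldSL.lo_eq]
    rfl
  · intro x hx
    exact (injective_iff_map_eq_one φ).1 (N.injective R) x hx

section chev

open Cfsg.Lie

variable {p : ℕ} (hp : p.Prime) {K : Type} [Field K] [Fintype K] [CharP K p]

include hp in
theorem nball_chev {D : ChevalleyDatum} {l : ℕ} {M : CoxeterMatrix (Fin l)} (ht : IsType D l M)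
    (hpar : parity D l = true) (i : Fin l) : NBall p ↥(D.group K) := by
  have : Fact p.Prime := ⟨hp⟩
  exact nball_of_nd64 hp (Cfsg.Agent.Nodes.RGDChev.finite_W ht M.toCoxeterSystem)
    (Cfsg.Agent.Nodes.RGDChev.rgd (K := K) ht M.toCoxeterSystem p)
    (Cfsg.Agent.Nodes.RGDChev.G1_eq_top ht M.toCoxeterSystem) (nd ht hpar K i)

end chev

/-- the characteristic from the order of the field -/
theorem charP_of_dvd {p : ℕ} (hp : p.Prime) (F : Type*) [Field F] [Fintype F] (h : p ∣ Fintype.card F) : CharP F p := by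
  obtain ⟨r, hr⟩ := CharP.exists F
  obtain ⟨n, hn, hc⟩ := FiniteField.card F r
  rw [hc] at h
  have h1 := (Nat.prime_dvd_prime_iff_eq hp hn).1 (hp.dvd_of_dvd_pow h)
  rw [h1]
  exact hr

theorem own_e6 : ∀ p q : ℕ, p.Prime → p ≠ 2 → p ∣ q → 3 ∣ q - 1 → NBRow p (.e6 q) := by
  intro p q hp _ hpq _ S _ _ hS _
  obtain ⟨F, _, _, hF, ⟨e⟩⟩ := hS.real
  have := charP_of_dvd hp F (by rw [hF]; exact hpq)
  exact NBall.congr e (nball_chev hp isType_E6 parity_E6 0)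

theorem own_e7 : ∀ p q : ℕ, p.Prime → p ≠ 2 → p ∣ q → NBRow p (.e7 q) := by
  intro p q hp _ hpq S _ _ hS _
  obtain ⟨F, _, _, hF, ⟨e⟩⟩ := hS.real
  have := charP_of_dvd hp F (by rw [hF]; exact hpq)
  exact NBall.congr e (nball_chev hp isType_E7 parity_E7 0)

theorem own_te6 : ∀ p q : ℕ, p.Prime → p ≠ 2 → p ∣ q → 3 ∣ q + 1 → NBRow p (.te6 q) := by
  intro p q hp _ hpq _ S _ _ hS _
  obtain ⟨K, _, _, hK, ⟨e⟩⟩ := hS.real
  have : CharP K p := charP_of_dvd hp K (by rw [hK]; exact hpq.trans (dvd_pow_self q two_ne_zero))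
  have : Fact p.Prime := ⟨hp⟩
  refine NBall.congr e ?_
  -- `q` is a power of `p`
  obtain ⟨b', -, hK'⟩ := FiniteField.card K p
  have hq : IsPrimePow q := by
    have h1 : q ∣ p ^ (b' : ℕ) := by
      rw [← hK', hK]
      exact dvd_pow_self q two_ne_zero
    obtain ⟨k, hk, rfl⟩ := (Nat.dvd_prime_pow hp).1 h1
    refine (isPrimePow_nat_iff _).2 ⟨p, k, hp, ?_, rfl⟩
    rcases Nat.eq_zero_or_pos k with rfl | h2
    · rw [pow_zero] at hpq
      exact absurd (Nat.dvd_one.1 hpq) hp.one_lt.ne'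
    · exact h2
  obtain ⟨φ, hφ, hqq⟩ := Cfsg.Agent.ChevalleyStructure.TwE6Basic.exists_frob hq hK
  have hch : CharP (Cfsg.Agent.Nodes.RGDFoldSL.Fx φ ((Nodes.RGDTwNode.E6.rest 0).length + 1)) p :=
    (RingHom.charP_iff (Cfsg.Agent.Nodes.RGDFoldSL.Fx φ _).subtype
      (Cfsg.Agent.Nodes.RGDFoldSL.Fx φ _).subtype_injective p).2 inferInstance
  have hN :=
    Cfsg.Agent.H59.CrossTw.nd_fold (Nodes.RGDTwE6.foldGrp hφ hqq) (Nodes.RGDTwNode.E6.nodeOK 0) (φ := φ)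
      (fun s hs t => by rw [Nodes.RGDTwNode.E6.eps_one 0 s hs, Int.cast_one, one_mul])
      (Cfsg.Agent.KFacts.MulOdd.InstTw.parityTw_spec Cfsg.Agent.KFacts.MulOdd.InstTw.parity_E6 0).choose_spec.1
      (Cfsg.Agent.KFacts.MulOdd.InstTw.parityTw_spec Cfsg.Agent.KFacts.MulOdd.InstTw.parity_E6 0).choose_spec.2
  have hW : Finite CoxeterMatrix.F₄.Group :=
    Cfsg.Agent.Nodes.RGDFold.finite_W (hp := isType_E6) CoxeterMatrix.F₄.toCoxeterSystem Nodes.RGDTwE6.isCartan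
      Nodes.RGDTwE6.foldData
  exact nball_of_nd64 hp hW
    (Nodes.RGDFold.rgd CoxeterMatrix.F₄.toCoxeterSystem Nodes.RGDTwE6.isCartan Nodes.RGDTwE6.foldData
      (Nodes.RGDTwE6.foldGrp hφ hqq) p)
    (Nodes.RGDFold.G1_eq_top CoxeterMatrix.F₄.toCoxeterSystem Nodes.RGDTwE6.isCartan Nodes.RGDTwE6.foldData
      (Nodes.RGDTwE6.foldGrp hφ hqq) p) hN

end Cfsg.Agent.H57.RIM
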