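import Cfsg.Agent.H963.RIM.OwnC
import Cfsg.Agent.H325.RIM.Surv
import Cfsg.Agent.H57.RIM.OwnEx
import Cfsg.Agent.OddHalf.NI.OmegaPlus
import Cfsg.Agent.Nodes.RGDOrth
import Cfsg.Agent.Nodes.WittInst

/-!
# S4816, RIM-L-OWN: `PΩ⁺_{2m}(q)` in its own characteristic (helper57)

`own_oplus` (field of `H325/RIM/Surv.lean` `RowsNB`): `P = Ω⁺`, the rank one group of the node `0` acts on two hyperbolic planes,
a third plane is fixed, so it meets the centre of `Ω⁺` trivially.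
-/

set_option autoImplicit false
set_option linter.unusedSectionVars false

namespace Cfsg.Agent.H57.RIM

open CoxeterSystem Cfsg.Agent.ChevalleyStructure.CoxeterGeom Cfsg.Agent.Tits.Roots Cfsg.Agent.Tits.Core
  Cfsg.Agent.Nodes.Reps Cfsg.Agent.Nodes.BNOf Cfsg.Agent.Nodes.Bruhat Cfsg.Agent.Nodes.RGDLib
open QuadraticMap
open Cfsg.Agent.LieClassical Cfsg.Agent.LieClassical.OrthCore Cfsg.Agent.LieClassical.OrthTrans
open Cfsg.Agent.LieClassical.OrthSimple Cfsg.Agent.LieClassical.OrthFinite Cfsg.Agent.LieClassical.OrthForms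
open Cfsg.Agent.TitsThree Cfsg.Agent.TitsThree.KSideO Cfsg.Agent.TitsThree.StdData
open Cfsg.Agent.Nodes Cfsg.Agent.Nodes.WittAll Cfsg.Agent.Nodes.WittInst Cfsg.Agent.Nodes.WittU
  Cfsg.Agent.TitsThree.Siegel Cfsg.Agent.TitsThree.SiegelGen
  Cfsg.Agent.TitsThree.WittFrame Cfsg.Agent.TitsThree.WBridge Cfsg.Agent.TitsThree.WittWeyl
  Cfsg.Agent.TitsThree.FrameCN
open Cfsg.Agent.Nodes.WittRoot (Mono)
open Cfsg.Agent.Nodes.WittRGD (Tor b_ne_zero)
open Cfsg.Agent.OddHalf.LongSL.OrthPhi Cfsg.Agent.OddHalf.LongSL.Orth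
open Cfsg.Agent.OddHalf.NI.Mult (up lo dg Coord)
open Cfsg
open Cfsg.Agent.H665.RIM Cfsg.Agent.H325.RIM Cfsg.Agent.OrdDiv Cfsg.Agent.H436
open scoped MatrixGroups Matrix

variable {K : Type} [Field K] [Fintype K]

/-- the root groups -/
abbrev XX (n : ℕ) (K : Type) [Field K] (x : Fin (n + 2) → ℤ) : Subgroup (E (plusForm (n + 2) K)) :=
  (WittRGDD.rg (toFrame (wplus (n + 2) K)) x).subgroupOf (E (plusForm (n + 2) K))

theorem nball_oplus {p : ℕ} (hp : p.Prime) (hp2 : p ≠ 2) [CharP K p] {l : ℕ} (hl : 4 ≤ l) :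
    NBall p (POmega K (quadFormPlus l K)) := by
  classical
  have hpf : Fact p.Prime := ⟨hp⟩
  obtain ⟨d, rfl⟩ : ∃ d, l = d + 2 := ⟨l - 2, by omega⟩
  have hG : Good (plusForm (d + 2) K) := by
    apply good_of_finite (nondeg_plusForm (d + 2) K)
    rw [Module.finrank_fintype_fun_eq_card, Fintype.card_sum, Fintype.card_fin]
    omega
  have hS : Cfsg.Agent.Nodes.RGDChev.HasRGD p (POmega K (quadFormPlus (d + 2) K)) := by
    obtain ⟨e, rfl⟩ : ∃ e, d = e + 1 := ⟨d - 1, by omega⟩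
    exact Cfsg.Agent.Nodes.WittInst.hasRGD_PO_plus (F := K) e (p := p)
  rw [← coe_plusForm] at hS ⊢
  have hfin : Finite ((Fin (d + 2) ⊕ Fin (d + 2) → K) ≃ₗ[K] (Fin (d + 2) ⊕ Fin (d + 2) → K)) :=
    Finite.of_injective (fun g : (Fin (d + 2) ⊕ Fin (d + 2) → K) ≃ₗ[K] (Fin (d + 2) ⊕ Fin (d + 2) → K) =>
      (g : (Fin (d + 2) ⊕ Fin (d + 2) → K) → (Fin (d + 2) ⊕ Fin (d + 2) → K))) DFunLike.coe_injective
  have hA := amb_plus (F := K) (d + 2)
  have h0 := adm_plus (F := K) (d + 2)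
  have hWf : Finite (TypeD.M d).Group := TypeD.finite_W (TypeD.M d).toCoxeterSystem
  have hR := rgd_restrict (rgdD hA h0 (TypeD.M d).toCoxeterSystem (p := p))
    (E (plusForm (d + 2) K)) (fun x _ => rgD_le _ hA x) (fun i => WittRGDD.nn_mem hA i)
  have hG1 : G1 (TypeD.M d).toCoxeterSystem (TypeD.isCartan d) (XX d K) = ⊤ := by
    have h1 := G1D_eq_top (wplus (d + 2) K) (MonoidHom.id (E (plusForm (d + 2) K))) Function.surjective_id h0
      (TypeD.M d).toCoxeterSystem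
    rw [← h1]
    congr 1
    funext x
    exact (Subgroup.map_id _).symm
  have hfinP : Finite (POmega K ⇑(plusForm (d + 2) K)) := Finite.of_surjective _ (toPOmega_surjective hG)
  -- the kernel acts by scalars `± 1`
  have hker : ∀ g : E (plusForm (d + 2) K), toPOmega hG g = 1 → ∃ c : K, (c = 1 ∨ c = -1) ∧
      ∀ v, (g : (Fin (d + 2) ⊕ Fin (d + 2) → K) ≃ₗ[K] (Fin (d + 2) ⊕ Fin (d + 2) → K)) v = c • v := by
    intro g hg
    obtain ⟨c, hc⟩ := scalar_of_center hG (center_of_toPOmega hG hg)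
    refine ⟨c, ?_, hc⟩
    obtain ⟨x, y, h⟩ := hG.exists_hyp
    have h1 : (plusForm (d + 2) K) (x + y) = 1 := by rw [Q_add, h.left, h.right, h.pair]; ring
    have h2 := mem_O.1 (E_le_O g.2) (x + y)
    rw [hc, QuadraticMap.map_smul, h1, smul_eq_mul, mul_one] at h2
    exact mul_self_eq_one_iff.1 h2
  have hcop : (Nat.card (toPOmega hG).ker).Coprime p := by
    have h1 : IsPGroup 2 (toPOmega hG).ker := by
      rintro ⟨g, hg⟩
      refine ⟨1, ?_⟩
      obtain ⟨c, hc, hv⟩ := hker g hg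
      apply Subtype.ext
      apply Subtype.ext
      apply LinearEquiv.ext
      intro v
      rw [pow_one, pow_two]
      change (g : (Fin (d + 2) ⊕ Fin (d + 2) → K) ≃ₗ[K] (Fin (d + 2) ⊕ Fin (d + 2) → K))
        ((g : (Fin (d + 2) ⊕ Fin (d + 2) → K) ≃ₗ[K] (Fin (d + 2) ⊕ Fin (d + 2) → K)) v) = v
      rw [hv, hv, smul_smul]
      rcases hc with rfl | rfl <;> simp
    obtain ⟨k, hk⟩ := IsPGroup.iff_card.1 h1
    rw [hk]
    exact Nat.Coprime.pow_left k (Nat.coprime_two_left.2 (hp.odd_of_ne_two hp2))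
  have hGG : GG (TypeD.M d).toCoxeterSystem (TypeD.isCartan d)
      ((Tor (toFrame (wplus (d + 2) K)) (E (plusForm (d + 2) K))).subgroupOf (E (plusForm (d + 2) K))) (XX d K) = ⊤ := by
    rw [eq_top_iff, ← hG1]
    exact le_sup_right
  have hC := OddHalf.NI.OmegaPlus.coord (wplus (d + 2) K)
  have hup : ∀ y, y ∈ XX d K (sr 0) ↔ ∃ t, OddHalf.NI.OmegaPlus.s (wplus (d + 2) K) 0 (up t) = y := by
    intro y
    exact Set.ext_iff.1 (hC.up 0) y
  have hlo : ∀ y, y ∈ XX d K (-sr 0) ↔ ∃ t, OddHalf.NI.OmegaPlus.s (wplus (d + 2) K) 0 (lo t) = y := by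
    intro y
    exact Set.ext_iff.1 (hC.lo 0) y
  refine H963.RIM.nball_of_nd hR hGG hS (toPOmega hG) (toPOmega_surjective hG)
    (fun g hg => center_of_toPOmega hG hg) hcop (i := (0 : Fin (d + 2)))
    (OddHalf.NI.OmegaPlus.s (wplus (d + 2) K) 0) (fun t => (hup _).2 ⟨t, rfl⟩) (fun y hy => (hup y).1 hy)
    (fun t => (hlo _).2 ⟨t, rfl⟩) ?_
  intro x hx
  obtain ⟨c, -, hv⟩ := hker _ hx
  -- a fixed frame vector
  have h3 : ((OddHalf.NI.OmegaPlus.s (wplus (d + 2) K) 0 x : E (plusForm (d + 2) K)) :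
      (Fin (d + 2) ⊕ Fin (d + 2) → K) ≃ₗ[K] (Fin (d + 2) ⊕ Fin (d + 2) → K))
        ((toFrame (wplus (d + 2) K)).b (⟨2, by omega⟩, true)) =
      (toFrame (wplus (d + 2) K)).b (⟨2, by omega⟩, true) := by
    refine Phi_of_ne _ (TypeD.ok_nx 0) _ ?_ ?_
    · intro h
      have h4 := congrArg Fin.val h
      simp at h4
    · intro h
      have h4 := congrArg Fin.val h
      unfold TypeD.nx at h4
      rw [dif_pos (by simp)] at h4
      simp at h4
  rw [hv] at h3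
  have hc1 : c = 1 := by
    have h4 : (c - 1) • (toFrame (wplus (d + 2) K)).b (⟨2, by omega⟩, true) = 0 := by
      rw [sub_smul, one_smul, h3, sub_self]
    exact sub_eq_zero.1 ((smul_eq_zero.1 h4).resolve_right (b_ne_zero _))
  apply OddHalf.NI.OmegaPlus.phi_injective (wplus (d + 2) K) (TypeD.ok_nx 0)
  rw [map_one]
  apply Subtype.ext
  apply LinearEquiv.ext
  intro v
  have h5 := hv v
  rw [hc1, one_smul] at h5
  exact h5

theorem own_oplus : ∀ p m q : ℕ, p.Prime → p ≠ 2 → p ∣ q → NBRow p (.oplus m q) := by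
  intro p m q hp hp2 hpq S _ _ hS _
  obtain ⟨F, _, _, hF, ⟨e⟩⟩ := hS.real
  have hch := charP_of_dvd hp F (by rw [hF]; exact hpq)
  have hm : 4 ≤ m := hS.cond.1
  exact NBall.congr e (nball_oplus hp hp2 hm)

end Cfsg.Agent.H57.RIM
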