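import Mathlib
import Cfsg.Agent.BpRee.PslOdd
import Cfsg.Agent.Schreier.ClassBase

/-!
# Automorphisms of odd order of `PSL(2, F)`, `F` finite of odd characteristic, and one split semisimple class

* `comm_inner`: `Out PSL(2, F)` is abelian;
* `inner_of_class`: an automorphism of odd order which fixes the class of the image of `diag(a, a⁻¹)`, `a` a generator of `Fˣ`, is inner;
* `comm_of_comm`: the elements of `PSL(2, F)` commuting with this element are its powers (`a² ≠ ± 1`).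
-/

set_option autoImplicit false

namespace Cfsg.Agent.H57.RIM

open Matrix
open Cfsg.Agent.ClassicalGeometry
open Cfsg.Agent.ClassicalGeometry.AutPSL.Root
open Cfsg.Agent.ClassicalGeometry.AutPSL.Auto
open Cfsg.Agent.ClassicalGeometry.AutPSL.Main
open Cfsg.Agent.Walter.FieldPSL
open Cfsg.Agent.CpAutRee.PslThree (gm coe_gm fld_mul_cj lift_cj_inner)

variable {F : Type*} [Field F]

theorem cjfld_mul (σ τ : F ≃+* F) (A B : GL (Fin 2) F) :
    (cj A * fld σ) * (cj B * fld τ) = (cj (A * gm σ B) * fld (σ * τ) :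
      MulAut (Matrix.SpecialLinearGroup (Fin 2) F)) := by
  rw [map_mul cj, map_mul fld, mul_assoc, ← mul_assoc (fld σ), fld_mul_cj]
  simp only [mul_assoc]

theorem isSquare_aut [Finite F] (h2 : (2 : F) ≠ 0) (σ : F ≃+* F) {a : F} (ha : a ≠ 0) :
    ∃ c : F, a * (σ a)⁻¹ = c ^ 2 := by
  classical
  let _ := Fintype.ofFinite F
  have hch : ringChar F ≠ 2 := by
    intro h
    apply h2
    have := ringChar.spec F 2
    exact_mod_cast this.2 (by rw [h])
  have hσa : σ a ≠ 0 := by simpa using ha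
  have hsq : IsSquare (a * σ a) := by
    have h1 : IsSquare (σ a) ↔ IsSquare a := by
      constructor
      · rintro ⟨b, hb⟩
        refine ⟨σ.symm b, ?_⟩
        rw [← map_mul, ← hb, RingEquiv.symm_apply_apply]
      · rintro ⟨b, hb⟩
        exact ⟨σ b, by rw [← map_mul, ← hb]⟩
    by_cases h : IsSquare a
    · obtain ⟨b, hb⟩ := h
      obtain ⟨c, hc⟩ := h1.2 ⟨b, hb⟩
      exact ⟨b * c, by rw [hb] at hc ⊢; rw [hc]; ring⟩
    · have h3 : ¬ IsSquare (σ a) := fun h4 => h (h1.1 h4)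
      rw [← quadraticChar_one_iff_isSquare (mul_ne_zero ha hσa), map_mul]
      have e1 : quadraticChar F a = -1 := by
        rcases quadraticChar_dichotomy ha with h5 | h5
        · exact absurd ((quadraticChar_one_iff_isSquare ha).1 h5) h
        · exact h5
      have e2 : quadraticChar F (σ a) = -1 := by
        rcases quadraticChar_dichotomy hσa with h5 | h5
        · exact absurd ((quadraticChar_one_iff_isSquare hσa).1 h5) h3
        · exact h5
      rw [e1, e2]
      norm_num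
  obtain ⟨b, hb⟩ := hsq
  refine ⟨b * (σ a)⁻¹, ?_⟩
  rw [mul_pow, sq b, ← hb]
  field_simp

/-- **`Out PSL(2, F)` is abelian.** -/
theorem comm_inner [Finite F] (h2 : (2 : F) ≠ 0) (α β : MulAut (Matrix.ProjectiveSpecialLinearGroup (Fin 2) F)) :
    ∃ g, α * β * (β * α)⁻¹ = MulAut.conj g := by
  classical
  let _ := Fintype.ofFinite F
  obtain ⟨p, hp⟩ := CharP.exists F
  have hpp : Fact p.Prime := ⟨CharP.char_is_prime F p⟩
  obtain ⟨A, σ, rfl⟩ := surj_two p α
  obtain ⟨B, τ, rfl⟩ := surj_two p β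
  have hcomm : σ * τ = τ * σ := Cfsg.Agent.Schreier.ClassBase.ringAut_comm σ τ
  have h1 : (cj A * fld σ * (cj B * fld τ)) * (cj B * fld τ * (cj A * fld σ))⁻¹ =
      (cj (A * gm σ B * (B * gm τ A)⁻¹) : MulAut (Matrix.SpecialLinearGroup (Fin 2) F)) := by
    rw [cjfld_mul, cjfld_mul, hcomm, _root_.mul_inv_rev, map_mul cj (A * gm σ B), map_inv]
    group
  rw [← map_mul, ← map_mul, ← map_inv, ← map_mul, h1]
  have hA0 : (A : Matrix (Fin 2) (Fin 2) F).det ≠ 0 :=
    ((Matrix.isUnit_iff_isUnit_det _).1 A.isUnit).ne_zero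
  have hB0 : (B : Matrix (Fin 2) (Fin 2) F).det ≠ 0 :=
    ((Matrix.isUnit_iff_isUnit_det _).1 B.isUnit).ne_zero
  obtain ⟨c, hc⟩ := isSquare_aut h2 τ hA0
  obtain ⟨d, hd⟩ := isSquare_aut h2 σ hB0
  have hdet : ∀ (ρ : F ≃+* F) (C : GL (Fin 2) F), (gm ρ C : Matrix (Fin 2) (Fin 2) F).det =
      ρ (C : Matrix (Fin 2) (Fin 2) F).det := by
    intro ρ C
    rw [coe_gm]
    exact (RingHom.map_det (ρ : F →+* F) (C : Matrix (Fin 2) (Fin 2) F)).symm
  have hd0 : d ≠ 0 := by
    rintro rfl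
    have : (B : Matrix (Fin 2) (Fin 2) F).det * (σ (B : Matrix (Fin 2) (Fin 2) F).det)⁻¹ ≠ 0 :=
      mul_ne_zero hB0 (inv_ne_zero (by simpa using hB0))
    apply this
    rw [hd]
    ring
  refine lift_cj_inner (c := c * d⁻¹) ?_
  have e1 : ((B * gm τ A)⁻¹ : GL (Fin 2) F).1.det = ((B * gm τ A : GL (Fin 2) F).1.det)⁻¹ := by
    apply eq_inv_of_mul_eq_one_left
    rw [← Matrix.det_mul, ← Units.val_mul, inv_mul_cancel, Units.val_one, Matrix.det_one]
  rw [Units.val_mul, Matrix.det_mul, e1, Units.val_mul, Units.val_mul, Matrix.det_mul, Matrix.det_mul, hdet, hdet,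
    mul_pow, inv_pow, ← hc, ← hd]
  have hA1 : τ (A : Matrix (Fin 2) (Fin 2) F).det ≠ 0 := by simpa using hA0
  have hB1 : σ (B : Matrix (Fin 2) (Fin 2) F).det ≠ 0 := by simpa using hB0
  field_simp

/-- the field lemma -/
theorem sig_eq_one {σ : F ≃+* F} {m : ℕ} (hm : Odd m) (hσ : σ ^ m = 1) {a : F} (ha0 : a ≠ 0)
    (hgen : ∀ b : F, b ≠ 0 → ∃ k : ℕ, b = a ^ k)
    (h : a ^ 2 = 1 ∨ a ^ 2 = -1 ∨ σ (a + a⁻¹) = a + a⁻¹ ∨ σ (a + a⁻¹) = -(a + a⁻¹)) : σ = 1 := by
  have hmul : ∀ (τ ρ : F ≃+* F) (x : F), (τ * ρ) x = τ (ρ x) := fun _ _ _ => rfl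
  have h4 : σ (σ (σ (σ a))) = a := by
    have hsq : ∀ {c : F}, σ a ^ 2 = a ^ 2 → σ (σ a) = a := by
      intro c h1
      rcases sq_eq_sq_iff_eq_or_eq_neg.1 h1 with h2 | h2
      · rw [h2, h2]
      · rw [h2, map_neg, h2, neg_neg]
    rcases h with h | h | h | h
    · have h1 : σ (σ a) = a := hsq (c := a) (by rw [← map_pow, h, map_one])
      rw [h1, h1]
    · have h1 : σ (σ a) = a := hsq (c := a) (by rw [← map_pow, h, map_neg, map_one])
      rw [h1, h1]
    all_goals
      have h1 : σ (σ (a + a⁻¹)) = a + a⁻¹ := by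
        rw [h]
        try rw [map_neg]
        rw [h]
        try rw [neg_neg]
      have hc0 : σ (σ a) ≠ 0 := by simpa using ha0
      rw [map_add, map_add, map_inv₀, map_inv₀] at h1
      have h2 : (σ (σ a) - a) * (σ (σ a) - a⁻¹) = 0 := by
        have h3 : σ (σ a) * (σ (σ a) + (σ (σ a))⁻¹) = σ (σ a) * (a + a⁻¹) := by rw [h1]
        rw [mul_add, mul_inv_cancel₀ hc0] at h3
        have h5 : a * a⁻¹ = 1 := mul_inv_cancel₀ ha0
        linear_combination h3 + h5
      rcases mul_eq_zero.1 h2 with h3 | h3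
      · have h5 := sub_eq_zero.1 h3
        rw [h5, h5]
      · have h5 := sub_eq_zero.1 h3
        rw [h5, map_inv₀, map_inv₀, h5, inv_inv]
  have h5 : σ ^ 4 = 1 := by
    apply RingEquiv.ext
    intro b
    have e : (σ ^ 4) b = σ (σ (σ (σ b))) := by
      rw [show (4 : ℕ) = 3 + 1 from rfl, pow_succ, hmul, show (3 : ℕ) = 2 + 1 from rfl, pow_succ, hmul, pow_two, hmul]
    rw [e]
    change _ = b
    by_cases hb : b = 0
    · rw [hb]
      simp
    · obtain ⟨k, rfl⟩ := hgen b hb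
      simp only [map_pow]
      rw [h4]
  have h6 : orderOf σ ∣ 4 := orderOf_dvd_of_pow_eq_one h5
  have h7 : orderOf σ ∣ m := orderOf_dvd_of_pow_eq_one hσ
  have h8 : Nat.Coprime 4 m := by
    have : Nat.Coprime (2 ^ 2) m := (Nat.Coprime.pow_left 2 (Nat.coprime_two_left.2 hm))
    exact this
  exact orderOf_eq_one_iff.1 (Nat.eq_one_of_dvd_coprimes h8 h6 h7)

/-- the split semisimple element -/
def dg (a : F) (ha : a ≠ 0) : Matrix.SpecialLinearGroup (Fin 2) F :=
  ⟨!![a, 0; 0, a⁻¹], by rw [det_fin_two_of, mul_inv_cancel₀ ha, mul_zero, sub_zero]⟩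

theorem dg_pow {a : F} (ha : a ≠ 0) (k : ℕ) : dg a ha ^ k = dg (a ^ k) (pow_ne_zero k ha) := by
  induction k with
  | zero =>
    apply Subtype.ext
    rw [pow_zero]
    change (1 : Matrix (Fin 2) (Fin 2) F) = !![a ^ 0, 0; 0, (a ^ 0)⁻¹]
    rw [pow_zero, inv_one, Matrix.one_fin_two]
  | succ k ih =>
    rw [pow_succ, ih]
    apply Subtype.ext
    change !![a ^ k, 0; 0, (a ^ k)⁻¹] * !![a, 0; 0, a⁻¹] = !![a ^ (k + 1), 0; 0, (a ^ (k + 1))⁻¹]
    rw [Matrix.mul_fin_two]
    congr 1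
    simp [pow_succ, mul_comm]

/-- **The centralizer of the split semisimple element.** -/
theorem comm_of_comm {a : F} (ha0 : a ≠ 0) (hgen : ∀ b : F, b ≠ 0 → ∃ k : ℕ, b = a ^ k) (h2 : (2 : F) ≠ 0)
    (h1 : a ^ 2 ≠ 1) (h1' : a ^ 2 ≠ -1) {y : Matrix.ProjectiveSpecialLinearGroup (Fin 2) F}
    (hy : y * pr (dg a ha0) = pr (dg a ha0) * y) : ∃ k : ℕ, y = pr (dg a ha0) ^ k := by
  obtain ⟨Y, rfl⟩ := pr_surjective y
  rw [← map_mul, ← map_mul, pr_eq_iff] at hy
  have hai : a * a⁻¹ = 1 := mul_inv_cancel₀ ha0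
  have hdet := Y.2
  rw [det_fin_two] at hdet
  rcases hy with h | h
  · have h' : Y.1 * !![a, 0; 0, a⁻¹] = !![a, 0; 0, a⁻¹] * Y.1 := congrArg Subtype.val h
    have h01 := congrFun (congrFun h' 0) 1
    have h10 := congrFun (congrFun h' 1) 0
    simp [Matrix.mul_apply, Fin.sum_univ_two] at h01 h10
    have hne : a⁻¹ - a ≠ 0 := by
      intro h3
      apply h1
      have h4 := sub_eq_zero.1 h3
      rw [sq]
      nth_rewrite 2 [← h4]
      exact hai
    have e01 : Y.1 0 1 = 0 := by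
      have : (a⁻¹ - a) * Y.1 0 1 = 0 := by linear_combination h01
      exact (mul_eq_zero.1 this).resolve_left hne
    have e10 : Y.1 1 0 = 0 := by
      have : (a⁻¹ - a) * Y.1 1 0 = 0 := by linear_combination -h10
      exact (mul_eq_zero.1 this).resolve_left hne
    rw [e01, zero_mul, sub_zero] at hdet
    have e00 : Y.1 0 0 ≠ 0 := by
      intro h3
      rw [h3, zero_mul] at hdet
      exact zero_ne_one hdet
    obtain ⟨k, hk⟩ := hgen _ e00
    refine ⟨k, ?_⟩
    rw [← map_pow, dg_pow]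
    congr 1
    apply Subtype.ext
    change Y.1 = !![a ^ k, 0; 0, (a ^ k)⁻¹]
    have e11 : Y.1 1 1 = (a ^ k)⁻¹ := by
      rw [← hk]
      exact (eq_inv_of_mul_eq_one_right hdet)
    ext i j
    fin_cases i <;> fin_cases j
    · exact hk
    · exact e01
    · exact e10
    · exact e11
  · exfalso
    have h' : Y.1 * !![a, 0; 0, a⁻¹] = -(!![a, 0; 0, a⁻¹] * Y.1) := by
      have := congrArg Subtype.val h
      rw [Matrix.SpecialLinearGroup.coe_neg] at this
      exact this
    have h00 := congrFun (congrFun h' 0) 0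
    have h01 := congrFun (congrFun h' 0) 1
    rw [Matrix.neg_apply, Matrix.mul_apply, Matrix.mul_apply, Fin.sum_univ_two, Fin.sum_univ_two] at h00 h01
    simp at h00 h01
    have e00 : Y.1 0 0 = 0 := by
      have : (2 * a) * Y.1 0 0 = 0 := by linear_combination h00
      exact (mul_eq_zero.1 this).resolve_left (mul_ne_zero h2 ha0)
    have e01 : Y.1 0 1 ≠ 0 := by
      intro h3
      rw [e00, h3, zero_mul, zero_mul, sub_zero] at hdet
      exact zero_ne_one hdet
    have h3 : (a⁻¹ + a) * Y.1 0 1 = 0 := by linear_combination h01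
    have h4 := (mul_eq_zero.1 h3).resolve_right e01
    apply h1'
    linear_combination a * h4 - hai

/-- **The class of the split semisimple element detects field automorphisms.** -/
theorem inner_of_class [Finite F] {α : MulAut (Matrix.ProjectiveSpecialLinearGroup (Fin 2) F)} {m : ℕ} (hm : Odd m)
    (hα : α ^ m = 1) {a : F} (ha0 : a ≠ 0) (hgen : ∀ b : F, b ≠ 0 → ∃ k : ℕ, b = a ^ k)
    (h : a ^ 2 = 1 ∨ a ^ 2 = -1 ∨ ∃ y, α (pr (dg a ha0)) = y * pr (dg a ha0) * y⁻¹) :
    ∃ g, α = MulAut.conj g := by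
  classical
  let _ := Fintype.ofFinite F
  obtain ⟨A, σ, rfl⟩ := CpAut.Psl.exists_of_odd le_rfl hm hα
  have hσ : σ ^ m = 1 := by
    obtain ⟨B, hB, -⟩ := CpAut.Psl.exists_pow A σ m
    rw [← map_pow, hB] at hα
    have h1 : lift (cj B * fld (σ ^ m)) = lift (fld (ι := Fin 2) (1 : F ≃+* F)) := by
      rw [hα, map_one fld, map_one]
    exact (injective_aux h1).2
  have hσ1 : σ = 1 := by
    apply sig_eq_one hm hσ ha0 hgen
    rcases h with h | h | ⟨y, hy⟩
    · exact Or.inl h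
    · exact Or.inr (Or.inl h)
    · right; right
      obtain ⟨Y, rfl⟩ := pr_surjective y
      rw [lift_pr, ← map_inv, ← map_mul, ← map_mul, pr_eq_iff] at hy
      have htr : ∀ (M : Matrix.SpecialLinearGroup (Fin 2) F), (Y * M * Y⁻¹).1.trace = M.1.trace := by
        intro M
        rw [Matrix.SpecialLinearGroup.coe_mul, Matrix.trace_mul_comm, ← Matrix.SpecialLinearGroup.coe_mul,
          inv_mul_cancel_left]
      have htr2 : ∀ (M : Matrix.SpecialLinearGroup (Fin 2) F), (cj A M).1.trace = M.1.trace := by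
        intro M
        rw [show (cj A M).1 = (A : Matrix (Fin 2) (Fin 2) F) * M.1 * ((A⁻¹ : GL (Fin 2) F) : Matrix (Fin 2) (Fin 2) F)
          from coe_cj A M, Matrix.trace_mul_comm, ← mul_assoc, ← Units.val_mul, inv_mul_cancel, Units.val_one, one_mul]
      have hd : (dg a ha0).1.trace = a + a⁻¹ := by
        simp [dg, Matrix.trace_fin_two]
      have hf : (fld σ (dg a ha0)).1.trace = σ (a + a⁻¹) := by
        rw [Matrix.trace_fin_two]
        change σ ((dg a ha0).1 0 0) + σ ((dg a ha0).1 1 1) = _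
        rw [← map_add]
        simp [dg]
      rw [MulAut.mul_apply] at hy
      rcases hy with hy | hy
      · left
        have := congrArg (fun M : Matrix.SpecialLinearGroup (Fin 2) F => M.1.trace) hy
        beta_reduce at this
        rw [htr, htr2, hd, hf] at this
        exact this
      · right
        have := congrArg (fun M : Matrix.SpecialLinearGroup (Fin 2) F => M.1.trace) hy
        beta_reduce at this
        rw [Matrix.SpecialLinearGroup.coe_neg, Matrix.trace_neg, htr, htr2, hd, hf] at this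
        exact this
  subst hσ1
  obtain ⟨k, hk⟩ := hm
  have h5 : lift (cj A * fld (1 : F ≃+* F)) = lift (cj (A ^ (k + 1) * A ^ (k + 1))) := by
    have e1 : lift (cj A * fld (1 : F ≃+* F)) = lift (cj A) := by rw [map_one fld, mul_one]
    rw [e1] at hα ⊢
    rw [← pow_add, map_pow, map_pow, show k + 1 + (k + 1) = m + 1 by omega, pow_succ, hα, one_mul]
  rw [h5]
  refine CpAutRee.PslThree.lift_cj_inner (c := ((A ^ (k + 1) : GL (Fin 2) F) : Matrix (Fin 2) (Fin 2) F).det) ?_
  rw [Units.val_mul, Matrix.det_mul, sq]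

/-- a generator of the multiplicative group -/
theorem exists_gen (F : Type*) [Field F] [Finite F] : ∃ a : F, a ≠ 0 ∧ ∀ b : F, b ≠ 0 → ∃ k : ℕ, b = a ^ k := by
  obtain ⟨g, hg⟩ := IsCyclic.exists_generator (α := Fˣ)
  refine ⟨g, g.ne_zero, fun b hb => ?_⟩
  have h1 := hg (Units.mk0 b hb)
  rw [← mem_powers_iff_mem_zpowers] at h1
  obtain ⟨k, hk⟩ := h1
  refine ⟨k, ?_⟩
  have := congrArg Units.val hk
  simpa using this.symm

end Cfsg.Agent.H57.RIM
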